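import Cfsg.Agent.H183.RC.Defs

/-!
# S3510, row C, task H1: an element of the nonsplit torus moved by a field automorphism

`exists_torus_elt`.  `s = w ^ 2 / det w` with `w = t + α`.
-/

set_option autoImplicit false

open Cfsg Matrix

namespace Cfsg.Agent.H522.RC

open Cfsg.Agent.H183.RC

section fld

variable {F : Type*} [Field F] [Finite F]

theorem sq_card_fix {σ : F ≃+* F} (hσ : σ ≠ 1) : Nat.card {x : F // σ x = x} ^ 2 ≤ Nat.card F := by
  obtain ⟨a, ha⟩ : ∃ a, σ a ≠ a := by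
    by_contra hcon
    push Not at hcon
    exact hσ (RingEquiv.ext hcon)
  rw [_root_.sq, ← Nat.card_prod]
  refine Nat.card_le_card_of_injective (fun x : {x : F // σ x = x} × {x : F // σ x = x} => (x.1 : F) + x.2 * a) ?_
  rintro ⟨⟨x, hx⟩, ⟨y, hy⟩⟩ ⟨⟨x', hx'⟩, ⟨y', hy'⟩⟩ h
  have h' : x + y * a = x' + y' * a := h
  have h1 : y = y' := by
    by_contra hne
    apply ha
    have h2 : y - y' ≠ 0 := sub_ne_zero.2 hne
    have h3 : a = (x' - x) / (y - y') := by
      rw [eq_div_iff h2]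
      linear_combination h'
    rw [h3, map_div₀, map_sub, map_sub, hx, hx', hy, hy']
  subst h1
  have h2 : x = x' := add_right_cancel h'
  subst h2
  rfl

theorem card_eig (σ : F ≃+* F) (c : F) : Nat.card {x : F // σ x = c * x} ≤ Nat.card {x : F // σ x = x} := by
  by_cases h : ∃ x₀ : F, x₀ ≠ 0 ∧ σ x₀ = c * x₀
  · obtain ⟨x₀, h0, hx₀⟩ := h
    have hc : c ≠ 0 := by
      rintro rfl
      rw [zero_mul, map_eq_zero] at hx₀
      exact h0 hx₀
    refine Nat.card_le_card_of_injective (fun x : {x : F // σ x = c * x} => (⟨x / x₀, ?_⟩ : {x : F // σ x = x})) ?_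
    · rw [map_div₀, x.2, hx₀, mul_div_mul_left _ _ hc]
    · intro x y h
      have h1 : (x : F) / x₀ = y / x₀ := congrArg (fun z : {x : F // σ x = x} => (z : F)) h
      exact Subtype.ext (by rwa [div_left_inj' h0] at h1)
  · push Not at h
    refine Nat.card_le_card_of_injective (fun _ : {x : F // σ x = c * x} => (⟨0, map_zero σ⟩ : {x : F // σ x = x})) ?_
    intro x y _
    have h1 : ∀ z : {x : F // σ x = c * x}, (z : F) = 0 := by
      intro z
      by_contra hz
      exact h z hz z.2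
    exact Subtype.ext (by rw [h1 x, h1 y])

/-- the counting argument -/
theorem exists_alpha {σ : F ≃+* F} (hσ : σ ≠ 1) (T D c : F) (h2 : (2 : F) = 0 → T ≠ 0) :
    ∃ α : F, (T + 2 * α) * σ (α ^ 2 - D) ≠ c * (α ^ 2 - D) * σ (T + 2 * α) := by
  classical
  have := Fintype.ofFinite F
  by_contra hcon
  push Not at hcon
  set k := Nat.card {x : F // σ x = x} with hk
  have hk2 := sq_card_fix hσ
  have hkc := card_eig σ c
  have hbad : ∀ α : F, T + 2 * α ≠ 0 → σ ((α ^ 2 - D) / (T + 2 * α)) = c * ((α ^ 2 - D) / (T + 2 * α)) := by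
    intro α hα
    have h3 : σ (T + 2 * α) ≠ 0 := by rwa [Ne, map_eq_zero]
    rw [map_div₀, div_eq_iff h3, mul_comm c, mul_assoc, div_mul_eq_mul_div, eq_div_iff hα]
    linear_combination hcon α
  have hk1 : 2 ≤ k := by
    rw [hk]
    have : Nontrivial {x : F // σ x = x} :=
      ⟨⟨⟨0, map_zero σ⟩, ⟨1, map_one σ⟩, fun h => zero_ne_one (congrArg (fun z : {x : F // σ x = x} => (z : F)) h)⟩⟩
    exact Finite.one_lt_card
  by_cases h : (2 : F) = 0
  · have hT := h2 h
    have h3 : Nat.card F ≤ Nat.card {x : F // σ x = c * x} := by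
      refine Nat.card_le_card_of_injective (fun α : F => (⟨(α ^ 2 - D) / T, ?_⟩ : {x : F // σ x = c * x})) ?_
      · have h4 := hbad α (by rwa [h, zero_mul, add_zero])
        rwa [h, zero_mul, add_zero] at h4
      · intro α β h4
        have h5 : (α ^ 2 - D) / T = (β ^ 2 - D) / T := congrArg (fun z : {x : F // σ x = c * x} => (z : F)) h4
        rw [div_left_inj' hT, sub_left_inj] at h5
        have h6 : (α - β) ^ 2 = 0 := by linear_combination h5 - (α * β - β ^ 2) * h
        exact sub_eq_zero.1 ((pow_eq_zero_iff two_ne_zero).1 h6)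
    nlinarith
  · have hk3 : 3 ≤ k := by
      rw [hk]
      have h4 : Nat.card (Fin 3) ≤ Nat.card {x : F // σ x = x} := by
        refine Nat.card_le_card_of_injective ![⟨0, map_zero σ⟩, ⟨1, map_one σ⟩, ⟨-1, by rw [map_neg, map_one]⟩] ?_
        have h5 : (0 : F) ≠ 1 := zero_ne_one
        have h6 : (0 : F) ≠ -1 := by
          intro h6
          exact h5 (by linear_combination -h6)
        have h7 : (1 : F) ≠ -1 := by
          intro h7
          exact h (by linear_combination h7)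
        intro i j hij
        have hij' := congrArg (fun z : {x : F // σ x = x} => (z : F)) hij
        fin_cases i <;> fin_cases j <;> simp_all
      rwa [Nat.card_fin] at h4
    -- the counting
    let A : Finset F := Finset.univ.filter fun α => T + 2 * α = 0
    let B : Finset F := Finset.univ.filter fun α => α ^ 2 - D = 0
    let C : Finset F := Finset.univ.filter fun α => T + 2 * α ≠ 0 ∧ α ^ 2 - D ≠ 0
    have hU : (Finset.univ : Finset F) ⊆ A ∪ B ∪ C := by
      intro α _
      rw [Finset.mem_union, Finset.mem_union]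
      by_cases h4 : T + 2 * α = 0
      · exact Or.inl (Or.inl (Finset.mem_filter.2 ⟨Finset.mem_univ _, h4⟩))
      by_cases h5 : α ^ 2 - D = 0
      · exact Or.inl (Or.inr (Finset.mem_filter.2 ⟨Finset.mem_univ _, h5⟩))
      · exact Or.inr (Finset.mem_filter.2 ⟨Finset.mem_univ _, h4, h5⟩)
    have hA : A.card ≤ 1 := by
      rw [Finset.card_le_one]
      intro α hα β hβ
      have h4 := (Finset.mem_filter.1 hα).2
      have h5 := (Finset.mem_filter.1 hβ).2
      have h6 : (2 : F) * (α - β) = 0 := by linear_combination h4 - h5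
      rcases mul_eq_zero.1 h6 with h7 | h7
      · exact absurd h7 h
      · exact sub_eq_zero.1 h7
    have hB : B.card ≤ 2 := by
      by_cases h4 : ∃ β, β ∈ B
      · obtain ⟨β, hβ⟩ := h4
        have h5 : B ⊆ {β, -β} := by
          intro α hα
          have h6 := (Finset.mem_filter.1 hα).2
          have h7 := (Finset.mem_filter.1 hβ).2
          have h8 : (α - β) * (α + β) = 0 := by linear_combination h6 - h7
          rw [Finset.mem_insert, Finset.mem_singleton]
          rcases mul_eq_zero.1 h8 with h9 | h9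
          · exact Or.inl (sub_eq_zero.1 h9)
          · exact Or.inr (eq_neg_of_add_eq_zero_left h9)
        exact (Finset.card_le_card h5).trans Finset.card_le_two
      · have h5 : B = ∅ := by
          rw [Finset.eq_empty_iff_forall_notMem]
          push Not at h4
          exact h4
        rw [h5]
        simp
    let X : Finset F := Finset.univ.filter fun x => σ x = c * x
    have hX : X.card ≤ k := by
      rw [← Fintype.card_subtype, ← Nat.card_eq_fintype_card]
      exact hkc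
    have hC : C.card ≤ 2 * (X.erase 0).card := by
      have h4 : ∀ b ∈ C.image (fun α => (α ^ 2 - D) / (T + 2 * α)),
          (C.filter fun α => (α ^ 2 - D) / (T + 2 * α) = b).card ≤ 2 := by
        intro b hb
        obtain ⟨β, hβ, hβb⟩ := Finset.mem_image.1 hb
        have h5 : (C.filter fun α => (α ^ 2 - D) / (T + 2 * α) = b) ⊆ {β, 2 * b - β} := by
          intro α hα
          obtain ⟨hα1, hα2⟩ := Finset.mem_filter.1 hα
          have e1 := (Finset.mem_filter.1 hα1).2.1
          have e2 := (Finset.mem_filter.1 hβ).2.1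
          rw [div_eq_iff e1] at hα2
          rw [div_eq_iff e2] at hβb
          have h8 : (α - β) * (α - (2 * b - β)) = 0 := by linear_combination hα2 - hβb
          rw [Finset.mem_insert, Finset.mem_singleton]
          rcases mul_eq_zero.1 h8 with h9 | h9
          · exact Or.inl (sub_eq_zero.1 h9)
          · exact Or.inr (sub_eq_zero.1 h9)
        exact (Finset.card_le_card h5).trans Finset.card_le_two
      have h5 := Finset.card_le_mul_card_image C 2 h4
      refine h5.trans (Nat.mul_le_mul_left _ (Finset.card_le_card ?_))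
      intro b hb
      obtain ⟨β, hβ, rfl⟩ := Finset.mem_image.1 hb
      obtain ⟨-, e1, e2⟩ := Finset.mem_filter.1 hβ
      rw [Finset.mem_erase]
      exact ⟨div_ne_zero e2 e1, Finset.mem_filter.2 ⟨Finset.mem_univ _, hbad β e1⟩⟩
    have h0 : (0 : F) ∈ X := Finset.mem_filter.2 ⟨Finset.mem_univ _, by rw [map_zero, mul_zero]⟩
    have hX1 := Finset.card_erase_of_mem h0
    have hXp : 0 < X.card := Finset.card_pos.2 ⟨0, h0⟩
    have h4 := Finset.card_le_card hU
    rw [Finset.card_univ, ← Nat.card_eq_fintype_card] at h4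
    have h5 := Finset.card_union_le (A ∪ B) C
    have h6 := Finset.card_union_le A B
    have h7 : Nat.card F ≤ 2 * k + 1 := by omega
    nlinarith

end fld

section mat

variable {F : Type*} [Field F]

/-- Cayley-Hamilton -/
theorem ch (t : Matrix (Fin 2) (Fin 2) F) : t * t = t.trace • t - t.det • (1 : Matrix (Fin 2) (Fin 2) F) := by
  ext i j
  fin_cases i <;> fin_cases j <;> simp [Matrix.mul_apply, Fin.sum_univ_two, Matrix.trace, Matrix.det_fin_two] <;> ring

theorem noEig_lin {t : GL (Fin 2) F} (ht : NoEig t) {y : GL (Fin 2) F} {a b : F} (hb : b ≠ 0)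
    (hy : (y : Matrix (Fin 2) (Fin 2) F) = a • (1 : Matrix (Fin 2) (Fin 2) F) + b • (t : Matrix (Fin 2) (Fin 2) F)) :
    NoEig y := by
  intro c v hv h
  refine ht (b⁻¹ * (c - a)) v hv ?_
  rw [hy, add_mulVec, smul_mulVec, one_mulVec, smul_mulVec] at h
  have h1 : b • ((t : Matrix (Fin 2) (Fin 2) F) *ᵥ v) = (c - a) • v := by
    rw [sub_smul, ← h]
    abel
  rw [mul_smul, ← h1, smul_smul, inv_mul_cancel₀ hb, one_smul]

theorem det_ne {t : GL (Fin 2) F} (ht : NoEig t) (α : F) :
    ((t : Matrix (Fin 2) (Fin 2) F) + α • (1 : Matrix (Fin 2) (Fin 2) F)).det ≠ 0 := by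
  intro h
  obtain ⟨v, hv, hv0⟩ := Matrix.exists_mulVec_eq_zero_iff.2 h
  refine ht (-α) v hv ?_
  rw [add_mulVec, smul_mulVec, one_mulVec] at hv0
  rw [neg_smul]
  exact eq_neg_of_add_eq_zero_left hv0

theorem trace_ne [Finite F] {t : GL (Fin 2) F} (ht : NoEig t) (h2 : (2 : F) = 0) :
    (t : Matrix (Fin 2) (Fin 2) F).trace ≠ 0 := by
  intro h
  -- `α ^ 2 = det t`
  have : CharP F 2 := CharTwo.of_one_ne_zero_of_two_eq_zero one_ne_zero h2
  obtain ⟨α, hα⟩ : IsSquare (t : Matrix (Fin 2) (Fin 2) F).det := by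
    have := Fintype.ofFinite F
    exact FiniteField.isSquare_of_char_two (ringChar.eq_iff.2 ‹_›) _
  refine det_ne ht α ?_
  have h3 := h
  rw [Matrix.trace_fin_two] at h3
  rw [Matrix.det_fin_two] at hα ⊢
  simp only [Matrix.add_apply, Matrix.smul_apply, Matrix.one_apply, smul_eq_mul]
  norm_num
  linear_combination hα + α * h3 + α ^ 2 * h2

end mat

/-- **H1** -/
theorem exists_torus_elt {F : Type*} [Field F] [Finite F] (h4 : 4 ≤ Nat.card F) (t B : GL (Fin 2) F)
    (ht : NoEig t) (σ : F ≃+* F) (hσ : σ ≠ 1) (c : F)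
    (hc : ((B * gmap σ t * B⁻¹ : GL (Fin 2) F) : Matrix (Fin 2) (Fin 2) F) = c • (t : Matrix (Fin 2) (Fin 2) F)) :
    ∃ s : SL F, let s' : GL (Fin 2) F := Matrix.SpecialLinearGroup.toGL s
      let y : GL (Fin 2) F := s' * (B * gmap σ s' * B⁻¹)⁻¹
      NoEig y ∧ (∀ a : GL (Fin 2) F, a * t = t * a → a * s' = s' * a ∧ a * y = y * a) := by
  set t₀ : Matrix (Fin 2) (Fin 2) F := (t : Matrix (Fin 2) (Fin 2) F) with ht₀
  set T := t₀.trace with hT
  set D := t₀.det with hD
  obtain ⟨α, hα⟩ := exists_alpha hσ T D c (trace_ne ht)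
  set w : Matrix (Fin 2) (Fin 2) F := t₀ + α • (1 : Matrix (Fin 2) (Fin 2) F) with hw
  set d := w.det with hd
  have hd0 : d ≠ 0 := det_ne ht α
  set s₀ := d⁻¹ * (α ^ 2 - D) with hs₀
  set s₁ := d⁻¹ * (T + 2 * α) with hs₁
  have hww : d⁻¹ • (w * w) = s₀ • (1 : Matrix (Fin 2) (Fin 2) F) + s₁ • t₀ := by
    have e1 : w * w = (α ^ 2 - D) • (1 : Matrix (Fin 2) (Fin 2) F) + (T + 2 * α) • t₀ := by
      have e2 : w * w = t₀ * t₀ + (2 * α) • t₀ + α ^ 2 • (1 : Matrix (Fin 2) (Fin 2) F) := by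
        rw [hw, add_mul, mul_add, mul_add, smul_mul_assoc, one_mul, mul_smul_comm, mul_one, smul_mul_smul_comm, mul_one,
          ← pow_two]
        module
      rw [e2, ch, ← hT, ← hD]
      module
    rw [e1]
    module
  have hdet : (d⁻¹ • (w * w)).det = 1 := by
    rw [Matrix.det_smul, Fintype.card_fin, Matrix.det_mul, ← hd]
    field_simp
  let s : SL F := ⟨d⁻¹ • (w * w), hdet⟩
  refine ⟨s, ?_⟩
  intro s' y
  have hs' : (s' : Matrix (Fin 2) (Fin 2) F) = s₀ • (1 : Matrix (Fin 2) (Fin 2) F) + s₁ • t₀ := hww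
  have hBB : (B : Matrix (Fin 2) (Fin 2) F) * ((B⁻¹ : GL (Fin 2) F) : Matrix (Fin 2) (Fin 2) F) = 1 := by
    rw [← Units.val_mul, mul_inv_cancel, Units.val_one]
  have hc' : (B : Matrix (Fin 2) (Fin 2) F) * t₀.map σ * ((B⁻¹ : GL (Fin 2) F) : Matrix (Fin 2) (Fin 2) F) = c • t₀ := hc
  have hτ : ((B * gmap σ s' * B⁻¹ : GL (Fin 2) F) : Matrix (Fin 2) (Fin 2) F) =
      σ s₀ • (1 : Matrix (Fin 2) (Fin 2) F) + (c * σ s₁) • t₀ := by
    have e1 : ((B * gmap σ s' * B⁻¹ : GL (Fin 2) F) : Matrix (Fin 2) (Fin 2) F) =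
        (B : Matrix (Fin 2) (Fin 2) F) * (s' : Matrix (Fin 2) (Fin 2) F).map σ *
          ((B⁻¹ : GL (Fin 2) F) : Matrix (Fin 2) (Fin 2) F) := rfl
    have e2 : (s₀ • (1 : Matrix (Fin 2) (Fin 2) F) + s₁ • t₀).map σ =
        σ s₀ • (1 : Matrix (Fin 2) (Fin 2) F) + σ s₁ • t₀.map σ := by
      ext i j
      fin_cases i <;> fin_cases j <;> simp
    rw [e1, hs', e2, mul_add, add_mul, mul_smul_comm, mul_one, smul_mul_assoc, hBB, mul_smul_comm, smul_mul_assoc, hc',
      smul_smul, mul_comm c]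
  have hdτ : (σ s₀ • (1 : Matrix (Fin 2) (Fin 2) F) + (c * σ s₁) • t₀).det = 1 := by
    rw [← hτ]
    show (((B * gmap σ s' * B⁻¹ : GL (Fin 2) F) : Matrix (Fin 2) (Fin 2) F)).det = 1
    have e1 : ((B * gmap σ s' * B⁻¹ : GL (Fin 2) F) : Matrix (Fin 2) (Fin 2) F) =
        (B : Matrix (Fin 2) (Fin 2) F) * (s' : Matrix (Fin 2) (Fin 2) F).map σ *
          ((B⁻¹ : GL (Fin 2) F) : Matrix (Fin 2) (Fin 2) F) := rfl
    have e2 : (s' : Matrix (Fin 2) (Fin 2) F).det = 1 := hdet
    have e3 : ((s' : Matrix (Fin 2) (Fin 2) F).map σ).det = σ ((s' : Matrix (Fin 2) (Fin 2) F).det) :=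
      (RingHom.map_det (σ : F →+* F) (s' : Matrix (Fin 2) (Fin 2) F)).symm
    rw [e1, Matrix.det_mul_right_comm, hBB, one_mul, e3, e2, map_one]
  set p := σ s₀ with hp
  set q := c * σ s₁ with hq
  have hinv : (((B * gmap σ s' * B⁻¹)⁻¹ : GL (Fin 2) F) : Matrix (Fin 2) (Fin 2) F) =
      (p + q * T) • (1 : Matrix (Fin 2) (Fin 2) F) - q • t₀ := by
    apply Units.inv_eq_of_mul_eq_one_right
    rw [hτ]
    have e1 : (p • (1 : Matrix (Fin 2) (Fin 2) F) + q • t₀) * ((p + q * T) • (1 : Matrix (Fin 2) (Fin 2) F) - q • t₀) =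
        (p • (1 : Matrix (Fin 2) (Fin 2) F) + q • t₀).det • (1 : Matrix (Fin 2) (Fin 2) F) := by
      rw [hT]
      ext i j
      fin_cases i <;> fin_cases j <;>
        simp [Matrix.mul_apply, Fin.sum_univ_two, Matrix.trace_fin_two, Matrix.det_fin_two] <;> ring
    rw [e1, hdτ, one_smul]
  have hy : (y : Matrix (Fin 2) (Fin 2) F) = (s₀ * (p + q * T) + s₁ * q * D) • (1 : Matrix (Fin 2) (Fin 2) F) +
      (s₁ * p - s₀ * q) • t₀ := by
    have e1 : (y : Matrix (Fin 2) (Fin 2) F) = (s' : Matrix (Fin 2) (Fin 2) F) *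
        (((B * gmap σ s' * B⁻¹)⁻¹ : GL (Fin 2) F) : Matrix (Fin 2) (Fin 2) F) := rfl
    rw [e1, hinv, hs', add_mul, mul_sub, mul_sub, smul_mul_smul_comm, smul_mul_smul_comm, smul_mul_smul_comm,
      smul_mul_smul_comm, ch t₀, ← hT, ← hD, one_mul, one_mul, mul_one]
    module
  have hb : s₁ * p - s₀ * q ≠ 0 := by
    have e1 : s₁ * p - s₀ * q = d⁻¹ * σ d⁻¹ * ((T + 2 * α) * σ (α ^ 2 - D) - c * (α ^ 2 - D) * σ (T + 2 * α)) := by
      rw [hp, hq, hs₀, hs₁, map_mul, map_mul]
      ring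
    rw [e1]
    refine mul_ne_zero (mul_ne_zero (inv_ne_zero hd0) ?_) (sub_ne_zero.2 hα)
    rw [Ne, map_eq_zero]
    exact inv_ne_zero hd0
  refine ⟨noEig_lin ht hb hy, fun a ha => ?_⟩
  have ha' : (a : Matrix (Fin 2) (Fin 2) F) * t₀ = t₀ * (a : Matrix (Fin 2) (Fin 2) F) := congrArg Units.val ha
  have key : ∀ (x : GL (Fin 2) F) (u v : F), (x : Matrix (Fin 2) (Fin 2) F) = u • (1 : Matrix (Fin 2) (Fin 2) F) + v • t₀ →
      a * x = x * a := by
    intro x u v hx
    apply Units.ext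
    rw [Units.val_mul, Units.val_mul, hx, mul_add, add_mul, mul_smul_comm, mul_one, mul_smul_comm, ha', smul_mul_assoc,
      one_mul, smul_mul_assoc]
  exact ⟨key s' _ _ hs', key y _ _ hy⟩

end Cfsg.Agent.H522.RC
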